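import Cfsg.Agent.HeCent.Class

/-!
At most 21504 elements of the presented Held group centralise the generator `d`.
-/

set_option autoImplicit false
set_option maxRecDepth 100000

namespace Cfsg.Agent.HeCent

open Cfsg.Agent.CosetCert

/-- Counting fixed points along a conjugacy class. -/
theorem card_centralizer_mul_le {G X : Type*} [Group G] [Finite G] [Finite X] [MulAction G X]
    [MulAction.IsPretransitive G X] (z : G) (x₀ : X) {m : ℕ} (f : Fin m → G)
    (hinj : Function.Injective f) (hf : ∀ r, IsConj z (f r) ∧ f r • x₀ = x₀) :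
    Nat.card (Subgroup.centralizer ({z} : Set G)) * (m * Nat.card X) ≤
      Nat.card G * Nat.card {x : X // z • x = x} := by
  classical
  have := Fintype.ofFinite G
  have := Fintype.ofFinite X
  let K := {c : G // IsConj z c}
  have hfib : ∀ c : K, Nat.card {x : X // c.1 • x = x} = Nat.card {x : X // z • x = x} := by
    rintro ⟨c, hc⟩
    obtain ⟨g, rfl⟩ := isConj_iff.1 hc
    refine (Nat.card_congr ((MulAction.toPerm g : X ≃ X).subtypeEquiv fun x => ?_)).symm
    simp [mul_smul]
  have hpts : ∀ x : X, m ≤ Nat.card {c : K // c.1 • x = x} := by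
    intro x
    obtain ⟨g, rfl⟩ := MulAction.exists_smul_eq G x₀ x
    have hmem : ∀ r, IsConj z (g * f r * g⁻¹) ∧ (g * f r * g⁻¹) • g • x₀ = g • x₀ := fun r =>
      ⟨(hf r).1.trans (isConj_iff.2 ⟨g, rfl⟩), by simp [mul_smul, (hf r).2]⟩
    let F : Fin m → {c : K // c.1 • g • x₀ = g • x₀} := fun r =>
      ⟨⟨g * f r * g⁻¹, (hmem r).1⟩, (hmem r).2⟩
    have hF : Function.Injective F := fun r s h => hinj (by
      have : g * f r * g⁻¹ = g * f s * g⁻¹ := congrArg (fun c => c.1.1) h
      simpa using this)
    simpa using Nat.card_le_card_of_injective F hF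
  let e : (Σ c : K, {x : X // c.1 • x = x}) ≃ Σ x : X, {c : K // c.1 • x = x} :=
    { toFun := fun p => ⟨p.2.1, p.1, p.2.2⟩
      invFun := fun p => ⟨p.2.1, p.1, p.2.2⟩
      left_inv := fun _ => rfl
      right_inv := fun _ => rfl }
  have hcount : m * Nat.card X ≤ Nat.card K * Nat.card {x : X // z • x = x} := by
    calc m * Nat.card X = ∑ _x : X, m := by simp [mul_comm, Nat.card_eq_fintype_card]
      _ ≤ ∑ x : X, Nat.card {c : K // c.1 • x = x} := Finset.sum_le_sum fun x _ => hpts x
      _ = Nat.card (Σ x : X, {c : K // c.1 • x = x}) := by rw [Nat.card_sigma]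
      _ = Nat.card (Σ c : K, {x : X // c.1 • x = x}) := (Nat.card_congr e).symm
      _ = ∑ c : K, Nat.card {x : X // c.1 • x = x} := by rw [Nat.card_sigma]
      _ = ∑ _c : K, Nat.card {x : X // z • x = x} := Finset.sum_congr rfl fun c _ => hfib c
      _ = Nat.card K * Nat.card {x : X // z • x = x} := by simp [Nat.card_eq_fintype_card]
  have hclass : Nat.card (Subgroup.centralizer ({z} : Set G)) * Nat.card K = Nat.card G := by
    have h1 := (MulAction.stabilizer (ConjAct G) z).card_mul_index
    rw [MulAction.index_stabilizer, Set.ncard_def, ← Set.ncard_def, ← Nat.card_coe_set_eq] at h1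
    have h2 : Nat.card (MulAction.orbit (ConjAct G) z) = Nat.card K :=
      Nat.card_congr (Equiv.subtypeEquivRight fun c => by rw [ConjAct.mem_orbit_conjAct]; exact isConj_comm)
    rw [h2, ← Subgroup.nat_card_centralizer_nat_card_stabilizer] at h1
    simpa using h1
  calc Nat.card (Subgroup.centralizer ({z} : Set G)) * (m * Nat.card X)
      ≤ Nat.card (Subgroup.centralizer ({z} : Set G)) *
          (Nat.card K * Nat.card {x : X // z • x = x}) := Nat.mul_le_mul_left _ hcount
    _ = _ := by rw [← mul_assoc, hclass]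

theorem fix_ok : allB (fun i => Nat.ble 2058 i || (!(Nat.beq (HeldSp.data.look 4 i) i) ||
    (fixList.contains i))) 12 0 = true := by decide +kernel

theorem finite_He : Finite Cfsg.Spor.He :=
  Nat.finite_of_card_ne_zero (by rw [Cfsg.Agent.CosetEnum.Held.main.2]; norm_num)

theorem card_centralizer_le :
    Nat.card (Subgroup.centralizer ({zel} : Set Cfsg.Spor.He)) ≤ 21504 := by
  classical
  have := finite_He
  letI : MulAction Cfsg.Spor.He (Fin 2058) := MulAction.compHom _ phi
  have hsmul : ∀ (g : Cfsg.Spor.He) (x : Fin 2058), g • x = phi g x := fun _ _ => rfl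
  have htr : MulAction.IsPretransitive Cfsg.Spor.He (Fin 2058) := by
    refine ⟨fun x y => ?_⟩
    obtain ⟨g, hg⟩ := phi_transitive x
    obtain ⟨g', hg'⟩ := phi_transitive y
    refine ⟨g' * g⁻¹, ?_⟩
    rw [← hg, ← hg', ← hsmul, ← hsmul, smul_smul, inv_mul_cancel_right]
  have hz0 : phi zel 0 = 0 := by
    apply Fin.ext
    rw [phi_zel]
    decide +kernel
  have hfixc : Nat.card {x : Fin 2058 // zel • x = x} ≤ 42 := by
    have hlen : fixList.length = 42 := by decide +kernel
    have hmem : ∀ x : {x : Fin 2058 // zel • x = x}, (x.1 : ℕ) ∈ fixList := fun x => by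
      have h := of_ble_or (allB_spec_zero fix_ok (by decide +kernel : 2058 ≤ 2 ^ 12) x.1.2) x.1.2
      have h2 : HeldSp.data.look 4 x.1 = (x.1 : ℕ) := by rw [← phi_zel]; exact congrArg Fin.val x.2
      rw [h2, show Nat.beq (x.1 : ℕ) x.1 = true from Nat.beq_refl _] at h
      simpa using h
    let F : {x : Fin 2058 // zel • x = x} → Fin 42 := fun x =>
      ⟨fixList.idxOf (x.1 : ℕ), hlen ▸ List.idxOf_lt_length_of_mem (hmem x)⟩
    have hF : Function.Injective F := fun x y h => Subtype.ext (Fin.ext
      ((List.idxOf_inj (hmem x)).1 (congrArg Fin.val h)))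
    simpa using Nat.card_le_card_of_injective F hF
  have key := card_centralizer_mul_le zel (0 : Fin 2058) member member_injective fun r => by
    obtain ⟨h, h0, e⟩ := member_conj r
    refine ⟨isConj_iff.2 ⟨h, e.symm⟩, ?_⟩
    have h1 : (phi h)⁻¹ (0 : Fin 2058) = 0 := Equiv.Perm.inv_eq_iff_eq.2 h0.symm
    rw [hsmul, e, map_mul, map_mul, map_inv, Equiv.Perm.mul_apply, Equiv.Perm.mul_apply, h1, hz0, h0]
  rw [Cfsg.Agent.CosetEnum.Held.main.2, Nat.card_fin] at key
  exact Nat.le_of_mul_le_mul_right
    ((key.trans (Nat.mul_le_mul_left _ hfixc)).trans_eq (by norm_num : 4030387200 * 42 = 21504 * (3825 * 2058)))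
    (by norm_num : 0 < 3825 * 2058)

end Cfsg.Agent.HeCent
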