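import Cfsg.Agent.HeCent.Data

/-! Kernel checks of the first chain. -/

set_option autoImplicit false
set_option maxRecDepth 100000

namespace Cfsg.Agent.HeCent

theorem chA0_ok : levelOK 410 chA0 [chA1, chA2, chA3] = true := by decide +kernel
theorem chA1_ok : levelOK 410 chA1 [chA2, chA3] = true := by decide +kernel
theorem chA2_ok : levelOK 410 chA2 [chA3] = true := by decide +kernel
theorem chA3_ok : levelOK 410 chA3 [] = true := by decide +kernel

theorem chA_ok : chainOK 410 chA = true := by
  simp [chA, chainOK, chA0_ok, chA1_ok, chA2_ok, chA3_ok]

theorem chA_prod : (chA.map fun L => L.trans.length).prod = 21504 := by decide +kernel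

theorem sifts_ok : sifts.length = (gensOf chB).length ∧
    (List.range sifts.length).all (fun j =>
      (List.range 410).all fun x =>
        Nat.beq (look ((gensOf chB).getD j (0, 0)).1 x) (app chA (sifts.getD j []) x)) = true := by
  decide +kernel

end Cfsg.Agent.HeCent
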