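import Cfsg.Agent.HeCent.Data

/-! Kernel checks of the second chain. -/

set_option autoImplicit false
set_option maxRecDepth 100000

namespace Cfsg.Agent.HeCent

theorem chB0_ok : levelOK 410 chB0 [chB1, chB2, chB3, chB4, chB5, chB6] = true := by decide +kernel
theorem chB1_ok : levelOK 410 chB1 [chB2, chB3, chB4, chB5, chB6] = true := by decide +kernel
theorem chB2_ok : levelOK 410 chB2 [chB3, chB4, chB5, chB6] = true := by decide +kernel
theorem chB3_ok : levelOK 410 chB3 [chB4, chB5, chB6] = true := by decide +kernel
theorem chB4_ok : levelOK 410 chB4 [chB5, chB6] = true := by decide +kernel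
theorem chB5_ok : levelOK 410 chB5 [chB6] = true := by decide +kernel
theorem chB6_ok : levelOK 410 chB6 [] = true := by decide +kernel

theorem chB_ok : chainOK 410 chB = true := by
  simp [chB, chainOK, chB0_ok, chB1_ok, chB2_ok, chB3_ok, chB4_ok, chB5_ok, chB6_ok]

theorem chB_prod : (chB.map fun L => L.trans.length).prod = 21504 := by decide +kernel

theorem chB_base : chB.all (fun L => Nat.ble 32 L.base && Nat.blt L.base 410) = true := by
  decide +kernel

end Cfsg.Agent.HeCent
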