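import Cfsg.Agent.HeCent.ClassChecks
import Cfsg.Agent.SporB.He.Realize
import Cfsg.Agent.CosetEnum.Held.Main

/-!
The centraliser of the generator `d` of the presented Held group has at most 21504 elements.
-/

set_option autoImplicit false
set_option maxRecDepth 100000

namespace Cfsg.Agent.HeCent

open Cfsg.Agent.CosetCert Cfsg.Agent.SporB.Held

theorem genRel : ∀ r ∈ Cfsg.Spor.coxRelators Cfsg.Spor.He.edges ∪ {r | r ∈ Cfsg.Spor.He.extra},
    FreeGroup.lift (PresData.genPerm HeldSp.valid) r = 1 :=
  PresData.genPerm_rel HeldSp.valid (fun u hu => HeldSp.word_letters u (List.mem_append_left _ hu))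
    HeldSp.base_letters

/-- The action on the 2058 cosets. -/
noncomputable def phi : Cfsg.Spor.He →* Equiv.Perm (Fin 2058) := PresentedGroup.toGroup genRel

/-- The element of a word. -/
noncomputable def el (u : List ℕ) : Cfsg.Spor.He := pval (HeldSp.data.act PresentedGroup.of) u

theorem phi_el {u : List ℕ} (hu : ∀ l ∈ u, 1 ≤ l ∧ l ≤ HeldSp.data.cols.length) (x : Fin 2058) :
    (phi (el u) x : ℕ) = HeldSp.data.run u x := by
  have h : phi (el u) = pval (HeldSp.data.act (PresData.genPerm HeldSp.valid)) u := by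
    rw [el, HeldSp.data.map_pval phi]
    congr 2
  rw [h]
  exact PresData.letters_words HeldSp.valid hu

theorem word_ok : ∀ i : Fin 7, ∀ l ∈ word i, 1 ≤ l ∧ l ≤ HeldSp.data.cols.length := by decide +kernel

/-- The involution. -/
noncomputable def zel : Cfsg.Spor.He := el [4]

theorem phi_zel (x : Fin 2058) : (phi zel x : ℕ) = HeldSp.data.look 4 x :=
  phi_el (by decide +kernel) x

theorem phi_injective : Function.Injective phi := by
  have hs := Cfsg.Agent.CosetEnum.Held.main.1
  rw [← MonoidHom.ker_eq_bot_iff]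
  refine (hs.eq_bot_or_eq_top_of_normal phi.ker inferInstance).resolve_right fun h => ?_
  have h1 : phi (el [2]) = 1 := MonoidHom.mem_ker.1 (h ▸ Subgroup.mem_top _)
  have h2 := phi_el (u := [2]) (by decide +kernel) 0
  rw [h1, Equiv.Perm.one_apply] at h2
  revert h2
  decide +kernel

theorem phi_transitive (x : Fin 2058) : ∃ g : Cfsg.Spor.He, phi g 0 = x := by
  obtain ⟨φ, hof, e, heq, he1⟩ := enum_spec HeldSp.valid HeldSp.word_letters HeldSp.base_letters
  have hφ : φ = phi := by
    refine PresentedGroup.ext fun a => ?_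
    rw [hof]
    exact (PresentedGroup.toGroup.of genRel).symm
  obtain ⟨g, hg⟩ := QuotientGroup.mk_surjective (e.symm x)
  refine ⟨g, ?_⟩
  have h := heq g ((1 : Cfsg.Spor.He) : Cfsg.Spor.He ⧸ _)
  rw [he1, MulAction.Quotient.smul_coe, smul_eq_mul, mul_one] at h
  rw [hg] at h
  exact (((e.apply_symm_apply x).symm.trans h).trans (by rw [hφ]; rfl)).symm

theorem zel_sq : zel * zel = 1 := by
  apply phi_injective
  refine Equiv.ext fun x => Fin.ext ?_
  rw [map_mul, map_one, Equiv.Perm.mul_apply, phi_zel, phi_zel, Equiv.Perm.one_apply]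
  have h : allB (fun i => Nat.ble 2058 i ||
      Nat.beq (HeldSp.data.look 4 (HeldSp.data.look 4 i)) i) 12 0 = true := by decide +kernel
  exact Nat.eq_of_beq_eq_true (of_ble_or (allB_spec_zero h (by decide +kernel : 2058 ≤ 2 ^ 12) x.2) x.2)

theorem zel_ne_one : zel ≠ 1 := by
  intro h
  have h2 := phi_zel 2
  rw [h] at h2
  simp only [map_one, Equiv.Perm.one_apply] at h2
  revert h2
  decide +kernel

theorem orderOf_zel : orderOf zel = 2 :=
  orderOf_eq_prime (by rw [pow_two]; exact zel_sq) zel_ne_one

/-- A permutation of the points induces a packed table on the blocks. -/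
def IndT (p : Equiv.Perm (Fin 2058)) (c : ℕ) : Prop :=
  ∀ x : Fin 2058, piN x < 85 → piN (p x) < 85 ∧ piN (p x) = at8 c (piN x)

/-- The generators of the point stabiliser. -/
noncomputable def sgen (g : Fin 7) : Cfsg.Spor.He := el (word g)

theorem sgen_fix (g : Fin 7) : phi (sgen g) 0 = 0 := by
  apply Fin.ext
  rw [sgen, phi_el (word_ok g)]
  revert g
  decide +kernel

theorem sgen_induces (g : Fin 7) : Induces (phi (sgen g)) (quad g) := fun x h => by
  rw [sgen, phi_el (word_ok g)]
  exact quad_compat g x h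

theorem word_two : word 2 = [4] := by decide +kernel

theorem class_member : ∀ j < 3825, ∃ h : Cfsg.Spor.He,
    phi h 0 = 0 ∧ IndT (phi (h * zel * h⁻¹)) (code j) := by
  intro j
  induction j using Nat.strong_induction_on with
  | _ j ih =>
    intro hj
    have hm := member_ok hj
    simp only [memberOK, Bool.and_eq_true] at hm
    obtain ⟨-, hm⟩ := hm
    rcases Nat.eq_zero_or_pos j with rfl | hpos
    · rw [show Nat.beq 0 0 = true from rfl, cond_true] at hm
      refine ⟨1, by rw [map_one, Equiv.Perm.one_apply], ?_⟩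
      rw [inv_one, one_mul, mul_one]
      intro x hx
      have h2 : phi zel = phi (sgen 2) := by rw [sgen, word_two]; rfl
      rw [h2, sgen_induces 2 x hx, Nat.eq_of_beq_eq_true hm]
      refine ⟨(quad 2 ⟨piN x, hx⟩).2, ?_⟩
      rw [quad_table]
      exact (code_quad ⟨piN x, hx⟩).symm
    · rw [show Nat.beq j 0 = false from Bool.eq_false_iff.mpr fun e => hpos.ne' (Nat.eq_of_beq_eq_true e), cond_false,
        Bool.and_eq_true, Bool.and_eq_true] at hm
      obtain ⟨hp, hg, hall⟩ := hm
      set p := Nat.div (parT.get 32 j) 16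
      set g := Nat.mod (parT.get 32 j) 16
      have hp' : p < j := Nat.le_of_ble_eq_true hp
      have hg' : g < 7 := Nat.le_of_ble_eq_true hg
      obtain ⟨h, hfix, hind⟩ := ih p hp' (by omega)
      set w := sgen ⟨g, hg'⟩
      refine ⟨w * h, by rw [map_mul, Equiv.Perm.mul_apply, hfix]; exact sgen_fix _, ?_⟩
      intro x hx
      have e : phi (w * h * zel * (w * h)⁻¹) x = phi w (phi (h * zel * h⁻¹) ((phi w)⁻¹ x)) := by
        simp [map_mul, mul_inv_rev, Equiv.Perm.mul_apply]
      have hy : piN ((phi w)⁻¹ x : Fin 2058) < 85 := by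
        have hclosed : ∀ y ∈ (Finset.univ.filter fun y : Fin 2058 => piN y < 85),
            phi w y ∈ (Finset.univ.filter fun y : Fin 2058 => piN y < 85) := fun y hy => by
          rw [Finset.mem_filter] at hy ⊢
          exact ⟨Finset.mem_univ _, by rw [sgen_induces _ y hy.2]; exact (quad _ _).2⟩
        have := Equiv.Perm.perm_symm_on_of_perm_on_finset hclosed
          (y := x) (Finset.mem_filter.2 ⟨Finset.mem_univ _, hx⟩)
        exact (Finset.mem_filter.1 this).2
      obtain ⟨hz, hzv⟩ := hind _ hy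
      have h1 := sgen_induces ⟨g, hg'⟩ _ hz
      have h2 := sgen_induces ⟨g, hg'⟩ _ hy
      rw [show phi w ((phi w)⁻¹ x) = x from (phi w).apply_symm_apply x] at h2
      rw [e]
      refine ⟨h1 ▸ (quad _ _).2, ?_⟩
      rw [h1, quad_table]
      have hk := of_ble_or (allB_spec_zero hall (by decide +kernel : 85 ≤ 2 ^ 7) hy) hy
      rw [h2, quad_table]
      simp only [hzv]
      exact (Nat.eq_of_beq_eq_true hk).symm

/-- The elements of the stabiliser class. -/
noncomputable def member (r : Fin 3825) : Cfsg.Spor.He :=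
  let h := Classical.epsilon fun h : Cfsg.Spor.He =>
    phi h 0 = 0 ∧ IndT (phi (h * zel * h⁻¹)) (code (srtT.get 16 r))
  h * zel * h⁻¹

theorem srt_spec (r : Fin 3825) : srtT.get 16 r < 3825 ∧
    ((r : ℕ) = 0 ∨ code (srtT.get 16 ((r : ℕ) - 1)) < code (srtT.get 16 r)) := by
  have h := of_ble_or (allB_spec_zero sorted_ok (by decide +kernel : 3825 ≤ 2 ^ 12) r.2) r.2
  rw [Bool.and_eq_true, Bool.or_eq_true] at h
  exact ⟨Nat.le_of_ble_eq_true h.1,
    h.2.imp Nat.eq_of_beq_eq_true fun h => Nat.le_of_ble_eq_true h⟩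

theorem member_spec (r : Fin 3825) : IndT (phi (member r)) (code (srtT.get 16 r)) :=
  (Classical.epsilon_spec (class_member _ (srt_spec r).1)).2

theorem member_conj (r : Fin 3825) : ∃ h, phi h 0 = 0 ∧ member r = h * zel * h⁻¹ :=
  ⟨_, (Classical.epsilon_spec (class_member _ (srt_spec r).1)).1, rfl⟩

theorem code_strictMono : StrictMono fun r : Fin 3825 => code (srtT.get 16 r) := by
  have hn : 3825 = 3824 + 1 := rfl
  refine Fin.strictMono_iff_lt_succ.2 fun i => ?_
  rcases (srt_spec i.succ).2 with h | h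
  · exact absurd h (Nat.succ_ne_zero _)
  · simpa using h

theorem member_injective : Function.Injective member := by
  intro r s hrs
  apply code_strictMono.injective
  have key : ∀ k < 85, at8 (code (srtT.get 16 r)) k = at8 (code (srtT.get 16 s)) k := by
    intro k hk
    have hx : piN (sec ⟨k, hk⟩ : Fin 2058) = k := (sec_spec ⟨k, hk⟩).2
    have h1 := (member_spec r (sec ⟨k, hk⟩) (hx.symm ▸ hk)).2
    have h2 := (member_spec s (sec ⟨k, hk⟩) (hx.symm ▸ hk)).2
    rw [hx] at h1 h2
    rw [← h1, hrs, h2]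
  have e : ∀ t : Fin 3825, pack85 (at8 (code (srtT.get 16 t))) = code (srtT.get 16 t) := fun t => by
    have h := member_ok (srt_spec t).1
    simp only [memberOK, Bool.and_eq_true] at h
    exact Nat.eq_of_beq_eq_true h.1
  show code _ = code _
  rw [← e r, ← e s]
  exact pack85_congr key

end Cfsg.Agent.HeCent
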