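import Cfsg.Agent.HeCent.ClassData
import Cfsg.Agent.CosetCert.Cox
import Cfsg.Agent.SporB.He.Data

/-!
Kernel checks of the class of the involution on 85 points.
-/

set_option autoImplicit false
set_option maxRecDepth 100000

namespace Cfsg.Agent.HeCent

open Cfsg.Agent.CosetCert Cfsg.Agent.SporB.Held

/-- One entry of a packed table on 85 points. -/
noncomputable def at8 (w k : ℕ) : ℕ := Nat.mod (Nat.shiftRight w (Nat.mul 8 k)) 256

/-- The tables of the class. -/
noncomputable def code (j : ℕ) : ℕ := clT.get 680 j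

/-- Pack 85 values. -/
noncomputable def pack85 (f : ℕ → ℕ) : ℕ :=
  Nat.rec (motive := fun _ => ℕ) 0 (fun k ih => Nat.add ih (Nat.shiftLeft (f k) (Nat.mul 8 k))) 85

theorem pack85_congr {f g : ℕ → ℕ} (h : ∀ k < 85, f k = g k) : pack85 f = pack85 g := by
  have key : ∀ n ≤ 85,
      Nat.rec (motive := fun _ => ℕ) 0 (fun k ih => Nat.add ih (Nat.shiftLeft (f k) (Nat.mul 8 k))) n =
      Nat.rec (motive := fun _ => ℕ) 0 (fun k ih => Nat.add ih (Nat.shiftLeft (g k) (Nat.mul 8 k))) n := by
    intro n hn
    induction n with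
    | zero => rfl
    | succ n ih =>
      show Nat.add _ (Nat.shiftLeft (f n) _) = Nat.add _ (Nat.shiftLeft (g n) _)
      rw [ih (by omega), h n (by omega)]
  exact key 85 le_rfl

/-- The check of one member of the class. -/
noncomputable def memberOK (j : ℕ) : Bool :=
  let c := code j
  let p := Nat.div (parT.get 32 j) 16
  let g := Nat.mod (parT.get 32 j) 16
  Nat.beq (pack85 (at8 c)) c &&
    cond (Nat.beq j 0) (Nat.beq c ((quadT.getD 2 (.leaf 0)).get 680 0))
      (Nat.blt p j && (Nat.blt g 7 &&
        allB (fun k => Nat.ble 85 k || Nat.beq (at8 c ((quadT.getD g (.leaf 0)).get 8 k))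
          ((quadT.getD g (.leaf 0)).get 8 (at8 (code p) k))) 7 0))

theorem members0 : allB (fun j => Nat.ble 3825 j || memberOK j) 11 0 = true := by decide +kernel

theorem members1 : allB (fun j => Nat.ble 3825 j || memberOK j) 11 2048 = true := by decide +kernel

theorem member_ok {j : ℕ} (hj : j < 3825) : memberOK j = true := by
  by_cases h : j < 2048
  · exact of_ble_or (allB_spec members0 j (Nat.zero_le _) (by omega)) hj
  · exact of_ble_or (allB_spec members1 j (by omega) (by omega)) hj

theorem sorted_ok : allB (fun r => Nat.ble 3825 r || (Nat.blt (srtT.get 16 r) 3825 &&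
    (Nat.beq r 0 || Nat.blt (code (srtT.get 16 (r - 1))) (code (srtT.get 16 r))))) 12 0 = true := by
  decide +kernel

theorem code_quad : ∀ k : Fin 85,
    at8 ((quadT.getD 2 (.leaf 0)).get 680 0) k = (quadT.getD 2 (.leaf 0)).get 8 k := by
  decide +kernel

end Cfsg.Agent.HeCent
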