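import Cfsg.Agent.HeCent.Bound
import Cfsg.Agent.HeCent.ChecksA
import Cfsg.Agent.HeCent.ChecksB

/-!
The centraliser of `d` in the presented Held group and the centraliser of a transvection in `SL(5, 2)`.
-/

set_option autoImplicit false
set_option maxRecDepth 100000

namespace Cfsg.Agent.HeCent

open Cfsg.Agent.CosetCert

/-- The special linear group. -/
abbrev SL5 : Type := Matrix.SpecialLinearGroup (Fin 5) (ZMod 2)

/-- The vector of a number. -/
def dec (n : ℕ) : Fin 5 → ZMod 2 := fun i => if n / 2 ^ (i : ℕ) % 2 = 1 then 1 else 0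

/-- The number of a vector. -/
def enc5 (v : Fin 5 → ZMod 2) : ℕ :=
  (v 0).val + 2 * (v 1).val + 4 * (v 2).val + 8 * (v 3).val + 16 * (v 4).val

theorem dec_enc5 : ∀ v : Fin 5 → ZMod 2, dec (enc5 v) = v := by decide +kernel

theorem enc5_lt : ∀ v : Fin 5 → ZMod 2, enc5 v < 32 := by decide +kernel

/-- The matrix of a generator. -/
def genMat (j : Fin 6) : Matrix (Fin 5) (Fin 5) (ZMod 2) :=
  Matrix.of fun a b => ((((genRows.getD j []).getD a []).getD b 0 : ℕ) : ZMod 2)

theorem genMat_det : ∀ j : Fin 6, (genMat j).det = 1 := by decide +kernel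

/-- A generator in the special linear group. -/
def genSL (j : Fin 6) : SL5 := ⟨genMat j, genMat_det j⟩

/-- A generator in the Held group. -/
noncomputable def genEl (j : Fin 6) : Cfsg.Spor.He := el (genWords.getD j [])

/-- A generator as a permutation of 410 points. -/
def genPm (j : Fin 6) : Equiv.Perm (Fin 410) := tabPerm 410 ((gensOf chA).getD j (0, 0))

theorem genWord_ok : ∀ j : Fin 6, ∀ l ∈ genWords.getD j [], 1 ≤ l ∧ l ≤ HeldSp.data.cols.length := by
  decide +kernel

/-- Point of the coset space. -/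
noncomputable def wpt (k : ℕ) : ℕ := ptT.get 16 k

theorem wpt_ok : ∀ k : Fin 378, wpt k < 2058 ∧ rkT.get 16 (wpt k) = k := by decide +kernel

theorem gens_length : (gensOf chA).length = 6 := by decide +kernel

theorem gens_tab : ∀ j : Fin 6, isTab 410 ((gensOf chA).getD j (0, 0)) = true := fun j => by
  have h : (j : ℕ) < (gensOf chA).length := gens_length.symm ▸ j.2
  rw [List.getD_eq_getElem _ _ h]
  exact gensOf_isTab chA_ok _ (List.getElem_mem h)

theorem genPm_apply (j : Fin 6) (x : Fin 410) :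
    (genPm j x : ℕ) = look ((gensOf chA).getD j (0, 0)).1 x :=
  tabPerm_apply (gens_tab j) x

theorem vec_ok : ∀ j : Fin 6, ∀ x : Fin 32,
    look ((gensOf chA).getD j (0, 0)).1 x = enc5 ((genMat j).mulVec (dec x)) := by decide +kernel

theorem pts_ok : ∀ j : Fin 6, allB (fun k => Nat.ble 378 k ||
    (Nat.ble 32 (look ((gensOf chA).getD j (0, 0)).1 (k + 32)) &&
      Nat.beq (HeldSp.data.run (genWords.getD j []) (wpt k))
        (wpt (look ((gensOf chA).getD j (0, 0)).1 (k + 32) - 32)))) 9 0 = true := by decide +kernel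

theorem comm_ok : ∀ j : Fin 6, allB (fun i => Nat.ble 2058 i ||
    Nat.beq (HeldSp.data.run (genWords.getD j []) (HeldSp.data.look 4 i))
      (HeldSp.data.look 4 (HeldSp.data.run (genWords.getD j []) i))) 12 0 = true := by decide +kernel

/-- The transvection. -/
def trv : SL5 := ⟨Matrix.transvection 0 1 1, by decide +kernel⟩

theorem genMat_comm : ∀ j : Fin 6,
    genMat j * Matrix.transvection 0 1 1 = Matrix.transvection 0 1 1 * genMat j := by decide +kernel

theorem genEl_mem (j : Fin 6) : genEl j ∈ Subgroup.centralizer ({zel} : Set Cfsg.Spor.He) := by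
  rw [Subgroup.mem_centralizer_singleton_iff]
  apply phi_injective
  refine Equiv.ext fun x => Fin.ext ?_
  rw [map_mul, map_mul, Equiv.Perm.mul_apply, Equiv.Perm.mul_apply, genEl, phi_el (genWord_ok j),
    phi_zel, phi_zel, phi_el (genWord_ok j)]
  exact Nat.eq_of_beq_eq_true
    (of_ble_or (allB_spec_zero (comm_ok j) (by decide +kernel : 2058 ≤ 2 ^ 12) x.2) x.2)

theorem genSL_mem (j : Fin 6) : genSL j ∈ Subgroup.centralizer ({trv} : Set SL5) := by
  rw [Subgroup.mem_centralizer_singleton_iff]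
  exact Subtype.ext (genMat_comm j)

/-- The three groups. -/
abbrev Triple : Type := Equiv.Perm (Fin 410) × Cfsg.Spor.He × SL5

/-- The generating triples. -/
noncomputable def genT (j : Fin 6) : Triple := (genPm j, genEl j, genSL j)

/-- The graph. -/
noncomputable def grp : Subgroup Triple := Subgroup.closure (Set.range genT)

/-- Compatible triples. -/
def Compat (t : Triple) : Prop :=
  ∀ x : Fin 410, ((x : ℕ) < 32 → (t.1 x : ℕ) = enc5 ((t.2.2 : Matrix _ _ _).mulVec (dec x))) ∧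
    (32 ≤ (x : ℕ) → 32 ≤ (t.1 x : ℕ) ∧
      ∀ h : wpt ((x : ℕ) - 32) < 2058, (phi t.2.1 ⟨_, h⟩ : ℕ) = wpt ((t.1 x : ℕ) - 32))

theorem grp_spec {t : Triple} (ht : t ∈ grp) :
    Compat t ∧ t.1 ∈ chainGroup 410 chA ∧
      t.2.1 ∈ Subgroup.centralizer ({zel} : Set Cfsg.Spor.He) ∧
      t.2.2 ∈ Subgroup.centralizer ({trv} : Set SL5) := by
  have := finite_He
  rw [grp, ← Subgroup.mem_toSubmonoid, Subgroup.closure_toSubmonoid_of_finite] at ht
  induction ht using Submonoid.closure_induction with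
  | one =>
    refine ⟨fun x => ⟨fun hx => ?_, fun hx => ⟨hx, fun h => ?_⟩⟩, one_mem _, one_mem _, one_mem _⟩
    · show (x : ℕ) = enc5 ((1 : Matrix (Fin 5) (Fin 5) (ZMod 2)).mulVec (dec x))
      rw [Matrix.one_mulVec]
      revert hx
      have h := (by decide +kernel : ∀ y : Fin 32, (y : ℕ) = enc5 (dec y))
      exact fun hx => h ⟨x, hx⟩
    · show (phi 1 ⟨_, h⟩ : ℕ) = _
      rw [map_one]
      rfl
  | mul a b _ _ ha hb =>
    obtain ⟨ca, a1, a2, a3⟩ := ha
    obtain ⟨cb, b1, b2, b3⟩ := hb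
    refine ⟨fun x => ⟨fun hx => ?_, fun hx => ?_⟩, mul_mem a1 b1, mul_mem a2 b2, mul_mem a3 b3⟩
    · show ((a.1 (b.1 x)) : ℕ) = _
      have h1 := (cb x).1 hx
      rw [(ca (b.1 x)).1 (h1 ▸ enc5_lt _), h1, dec_enc5, Matrix.mulVec_mulVec]
      rfl
    · obtain ⟨h1, h2⟩ := (cb x).2 hx
      obtain ⟨h3, h4⟩ := (ca (b.1 x)).2 h1
      refine ⟨h3, fun h => ?_⟩
      show (phi (a.2.1 * b.2.1) ⟨_, h⟩ : ℕ) = _
      rw [map_mul, Equiv.Perm.mul_apply]
      have h5 : (b.1 x : ℕ) - 32 < 378 := by have := (b.1 x).2; omega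
      have h6 := h4 (wpt_ok ⟨_, h5⟩).1
      rw [show phi b.2.1 ⟨_, h⟩ = ⟨_, (wpt_ok ⟨_, h5⟩).1⟩ from Fin.ext (h2 h)]
      exact h6
  | mem t ht =>
    obtain ⟨j, rfl⟩ := ht
    refine ⟨fun x => ⟨fun hx => ?_, fun hx => ?_⟩, ?_, genEl_mem j, genSL_mem j⟩
    · show (genPm j x : ℕ) = _
      rw [genPm_apply]
      exact vec_ok j ⟨x, hx⟩
    · have hk : (x : ℕ) - 32 < 378 := by have := x.2; omega
      have h := of_ble_or (allB_spec_zero (pts_ok j) (by decide +kernel : 378 ≤ 2 ^ 9) hk) hk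
      rw [Bool.and_eq_true, show (x : ℕ) - 32 + 32 = x by omega] at h
      show 32 ≤ (genPm j x : ℕ) ∧ _
      rw [genPm_apply]
      refine ⟨Nat.le_of_ble_eq_true h.1, fun hh => ?_⟩
      show (phi (genEl j) ⟨_, hh⟩ : ℕ) = wpt ((genPm j x : ℕ) - 32)
      rw [genPm_apply, genEl, phi_el (genWord_ok j)]
      exact Nat.eq_of_beq_eq_true h.2
    · refine Subgroup.subset_closure ?_
      have h : (j : ℕ) < (gensOf chA).length := gens_length.symm ▸ j.2
      show genPm j ∈ _
      rw [genPm, List.getD_eq_getElem _ _ h]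
      exact List.mem_map.2 ⟨_, List.getElem_mem h, rfl⟩

theorem chB_eq : chainGroup 410 chB = chainGroup 410 chA := by
  refine Subgroup.eq_of_le_of_card_ge ?_ ?_
  · rw [chainGroup, Subgroup.closure_le]
    intro p hp
    obtain ⟨s, hs, rfl⟩ := List.mem_map.1 hp
    obtain ⟨i, hi, rfl⟩ := List.getElem_of_mem hs
    obtain ⟨k, hk, hkx⟩ := (chain_spec chA_ok).2.2 (sifts.getD i [])
    suffices e : tabPerm 410 (gensOf chB)[i] = k by rw [SetLike.mem_coe, e]; exact hk
    refine Equiv.ext fun x => Fin.ext ?_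
    rw [hkx, tabPerm_apply (gensOf_isTab chB_ok _ hs)]
    have h := List.all_eq_true.1 (List.all_eq_true.1 sifts_ok.2 i
      (List.mem_range.2 (sifts_ok.1.symm ▸ hi))) x (List.mem_range.2 x.2)
    rw [List.getD_eq_getElem _ _ hi] at h
    exact Nat.eq_of_beq_eq_true h
  · rw [(chain_spec chA_ok).1, chA_prod, (chain_spec chB_ok).1, chB_prod]

theorem perm_of_el {t t' : Triple} (ht : t ∈ grp) (ht' : t' ∈ grp) (h : t.2.1 = t'.2.1) :
    t.1 = t'.1 := by
  obtain ⟨c, d, -, -⟩ := grp_spec (mul_mem (inv_mem ht) ht')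
  have hq : (t⁻¹ * t').1 = 1 := by
    refine (chain_spec chB_ok).2.1 _ (chB_eq.symm ▸ d) fun L hL x hx => ?_
    have hb := List.all_eq_true.1 chB_base L hL
    rw [Bool.and_eq_true] at hb
    have h32 : 32 ≤ (x : ℕ) := hx ▸ Nat.le_of_ble_eq_true hb.1
    obtain ⟨h1, h2⟩ := (c x).2 h32
    have hk : (x : ℕ) - 32 < 378 := by have := x.2; omega
    have h3 := h2 (wpt_ok ⟨_, hk⟩).1
    rw [show (t⁻¹ * t').2.1 = t.2.1⁻¹ * t'.2.1 from rfl, h, inv_mul_cancel, map_one,
      Equiv.Perm.one_apply] at h3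
    have hk' : ((t⁻¹ * t').1 x : ℕ) - 32 < 378 := by have := ((t⁻¹ * t').1 x).2; omega
    have h4 := congrArg (rkT.get 16) h3
    rw [(wpt_ok ⟨_, hk⟩).2, (wpt_ok ⟨_, hk'⟩).2] at h4
    have h5 : (x : ℕ) - 32 = ((t⁻¹ * t').1 x : ℕ) - 32 := h4
    refine Fin.ext ?_
    show ((t⁻¹ * t').1 x : ℕ) = (x : ℕ)
    omega
  exact (inv_mul_eq_one.1 hq)

theorem perm_of_mat {t t' : Triple} (ht : t ∈ grp) (ht' : t' ∈ grp) (h : t.2.2 = t'.2.2) :
    t.1 = t'.1 := by
  obtain ⟨c, d, -, -⟩ := grp_spec (mul_mem (inv_mem ht) ht')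
  have hq : (t⁻¹ * t').1 = 1 := by
    refine (chain_spec chA_ok).2.1 _ d fun L hL x hx => ?_
    have hA : ∀ L ∈ chA, L.base < 32 := by
      intro L hL
      simp only [chA, List.mem_cons, List.not_mem_nil, or_false] at hL
      rcases hL with rfl | rfl | rfl | rfl <;> decide +kernel
    have h1 := (c x).1 (hx ▸ hA L hL)
    rw [show (t⁻¹ * t').2.2 = t.2.2⁻¹ * t'.2.2 from rfl, h, inv_mul_cancel] at h1
    refine Fin.ext (h1.trans ?_)
    show enc5 ((1 : Matrix (Fin 5) (Fin 5) (ZMod 2)).mulVec (dec x)) = x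
    rw [Matrix.one_mulVec]
    exact ((by decide +kernel : ∀ y : Fin 32, enc5 (dec y) = y) ⟨x, hx ▸ hA L hL⟩)
  exact (inv_mul_eq_one.1 hq)

theorem exists_lift {p : Equiv.Perm (Fin 410)} (hp : p ∈ chainGroup 410 chA) :
    ∃ t ∈ grp, t.1 = p := by
  have h : chainGroup 410 chA ≤ grp.map (MonoidHom.fst _ _) := by
    rw [chainGroup, Subgroup.closure_le]
    intro q hq
    obtain ⟨s, hs, rfl⟩ := List.mem_map.1 hq
    obtain ⟨i, hi, rfl⟩ := List.getElem_of_mem hs
    refine ⟨genT ⟨i, gens_length ▸ hi⟩, Subgroup.subset_closure ⟨_, rfl⟩, ?_⟩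
    show genPm _ = _
    rw [genPm, List.getD_eq_getElem _ _ hi]
  exact h hp

/-- A subgroup of a finite group that receives the graph and separates its permutations. -/
theorem projection {H : Type*} [Group H] [Finite H] (π : Triple →* H) (C : Subgroup H)
    (hC : Nat.card C ≤ 21504) (hmem : ∀ t ∈ grp, π t ∈ C)
    (hsep : ∀ t ∈ grp, ∀ t' ∈ grp, π t = π t' → t.1 = t'.1) :
    (∀ c ∈ C, ∃ t ∈ grp, π t = c) ∧ ∀ t ∈ grp, π t = 1 ↔ t.1 = 1 := by
  classical
  let g : chainGroup 410 chA → C := fun p =>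
    ⟨π (exists_lift p.2).choose, hmem _ (exists_lift p.2).choose_spec.1⟩
  have hg : Function.Injective g := fun p q h => Subtype.ext <| by
    rw [← (exists_lift p.2).choose_spec.2, ← (exists_lift q.2).choose_spec.2]
    exact hsep _ (exists_lift p.2).choose_spec.1 _ (exists_lift q.2).choose_spec.1
      (congrArg Subtype.val h)
  have hgs : Function.Bijective g := hg.bijective_of_nat_card_le (by
    rw [(chain_spec chA_ok).1, chA_prod]; exact hC)
  refine ⟨fun c hc => ?_, fun t ht => ⟨fun h => ?_, fun h => ?_⟩⟩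
  · obtain ⟨p, hp⟩ := hgs.2 ⟨c, hc⟩
    exact ⟨_, (exists_lift p.2).choose_spec.1, congrArg Subtype.val hp⟩
  · simpa using hsep t ht 1 (one_mem _) (h.trans (map_one π).symm)
  · obtain ⟨q, hq⟩ := hgs.2 ⟨π t, hmem t ht⟩
    have hq' : π (exists_lift q.2).choose = π t := congrArg Subtype.val hq
    have h1 := hsep _ (exists_lift q.2).choose_spec.1 _ ht hq'
    rw [(exists_lift q.2).choose_spec.2, h] at h1
    obtain ⟨q₁, hq₁⟩ := hgs.2 ⟨π 1, hmem 1 (one_mem _)⟩
    have h2 := hsep _ (exists_lift q₁.2).choose_spec.1 _ (one_mem _) (congrArg Subtype.val hq₁)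
    rw [(exists_lift q₁.2).choose_spec.2] at h2
    obtain rfl : q = q₁ := Subtype.ext (h1.trans h2.symm)
    rw [← hq', ← map_one π]
    exact congrArg Subtype.val hq₁

theorem card_trv_le : Nat.card (Subgroup.centralizer ({trv} : Set SL5)) ≤ 21504 := by
  classical
  have hcomm : ∀ M : Subgroup.centralizer ({trv} : Set SL5),
      (∀ i : Fin 5, i ≠ 0 → (M.1 : Matrix (Fin 5) (Fin 5) (ZMod 2)) i 0 = 0) ∧
      (∀ j : Fin 5, j ≠ 1 → (M.1 : Matrix (Fin 5) (Fin 5) (ZMod 2)) 1 j = 0) ∧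
      (M.1 : Matrix (Fin 5) (Fin 5) (ZMod 2)) 0 0 = (M.1 : Matrix (Fin 5) (Fin 5) (ZMod 2)) 1 1 := by
    intro M
    have h0 : M.1 * trv = trv * M.1 := Subgroup.mem_centralizer_singleton_iff.1 M.2
    have h := congrArg (fun A : SL5 => A.1) h0
    change (M.1 : Matrix (Fin 5) (Fin 5) (ZMod 2)) * Matrix.transvection 0 1 1 =
      Matrix.transvection 0 1 1 * (M.1 : Matrix (Fin 5) (Fin 5) (ZMod 2)) at h
    rw [Matrix.transvection, mul_add, add_mul, mul_one, one_mul, add_left_cancel_iff] at h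
    refine ⟨fun i hi => ?_, fun j hj => ?_, ?_⟩
    · simpa [hi, hi.symm, Matrix.mul_apply, Matrix.single] using congrFun (congrFun h i) 1
    · simpa [hj, hj.symm, Matrix.mul_apply, Matrix.single, eq_comm] using congrFun (congrFun h 0) j
    · simpa [Matrix.mul_apply, Matrix.single] using congrFun (congrFun h 0) 1
  have hz : ∀ a : ZMod 2, a ≠ 0 → a = 1 := by decide
  have h00 : ∀ M : Subgroup.centralizer ({trv} : Set SL5),
      (M.1 : Matrix (Fin 5) (Fin 5) (ZMod 2)) 0 0 = 1 := by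
    intro M
    refine hz _ fun h0 => ?_
    have hd := M.1.2
    rw [Matrix.det_eq_zero_of_column_eq_zero (0 : Fin 5) fun i => ?_] at hd
    · exact zero_ne_one hd
    · rcases eq_or_ne i 0 with rfl | hi
      · exact h0
      · exact (hcomm M).1 i hi
  let emb : Fin 3 → Fin 5 := ![2, 3, 4]
  have hblk : ∀ M N : Subgroup.centralizer ({trv} : Set SL5),
      (M * N).1.1.submatrix emb emb = M.1.1.submatrix emb emb * N.1.1.submatrix emb emb := by
    intro M N
    ext i j
    have h0 : (M.1 : Matrix (Fin 5) (Fin 5) (ZMod 2)) (emb i) 0 = 0 :=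
      (hcomm M).1 _ (by fin_cases i <;> decide)
    have h1 : (N.1 : Matrix (Fin 5) (Fin 5) (ZMod 2)) 1 (emb j) = 0 :=
      (hcomm N).2.1 _ (by fin_cases j <;> decide)
    show (M.1.1 * N.1.1) (emb i) (emb j) = _
    simp only [Matrix.mul_apply, Matrix.submatrix_apply, Fin.sum_univ_five, Fin.sum_univ_three]
    simp [h0, h1, emb]
  have hone : (1 : Subgroup.centralizer ({trv} : Set SL5)).1.1.submatrix emb emb = 1 :=
    Matrix.submatrix_one _ (by decide)
  let F : Subgroup.centralizer ({trv} : Set SL5) →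
      (Fin 4 → ZMod 2) × (Fin 3 → ZMod 2) × GL (Fin 3) (ZMod 2) := fun M =>
    (fun j => M.1.1 0 j.succ, fun i => M.1.1 (emb i) 1,
      ⟨M.1.1.submatrix emb emb, (M⁻¹).1.1.submatrix emb emb,
        by rw [← hblk, mul_inv_cancel, hone], by rw [← hblk, inv_mul_cancel, hone]⟩)
  have hF : Function.Injective F := by
    intro M N h
    simp only [F, Prod.mk.injEq, Units.ext_iff] at h
    obtain ⟨h1, h2, h3⟩ := h
    refine Subtype.ext (Subtype.ext (Matrix.ext fun i j => ?_))
    have e1 := congrFun h1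
    have e3 := fun a b => congrFun (congrFun h3 a) b
    simp only [Matrix.submatrix_apply] at e3
    fin_cases i <;> fin_cases j
    all_goals first
      | exact ((h00 M).trans (h00 N).symm)
      | exact ((hcomm M).1 _ (by decide)).trans ((hcomm N).1 _ (by decide)).symm
      | exact ((hcomm M).2.1 _ (by decide)).trans ((hcomm N).2.1 _ (by decide)).symm
      | exact ((hcomm M).2.2.symm.trans ((h00 M).trans (h00 N).symm)).trans (hcomm N).2.2
      | exact e1 0
      | exact e1 1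
      | exact e1 2
      | exact e1 3
      | exact congrFun h2 0
      | exact congrFun h2 1
      | exact congrFun h2 2
      | exact e3 0 0
      | exact e3 0 1
      | exact e3 0 2
      | exact e3 1 0
      | exact e3 1 1
      | exact e3 1 2
      | exact e3 2 0
      | exact e3 2 1
      | exact e3 2 2
  refine (Nat.card_le_card_of_injective F hF).trans ?_
  rw [Nat.card_prod, Nat.card_prod, Matrix.card_GL_field]
  simp [Fin.prod_univ_three, Nat.card_eq_fintype_card]

theorem iso : Nonempty (Subgroup.centralizer ({zel} : Set Cfsg.Spor.He) ≃*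
    Subgroup.centralizer ({trv} : Set SL5)) := by
  classical
  have := finite_He
  let π₁ : Triple →* Cfsg.Spor.He := (MonoidHom.fst _ _).comp (MonoidHom.snd _ _)
  let π₂ : Triple →* SL5 := (MonoidHom.snd _ _).comp (MonoidHom.snd _ _)
  obtain ⟨s₁, k₁⟩ := projection π₁ _ card_centralizer_le (fun t ht => (grp_spec ht).2.2.1)
    fun t ht t' ht' h => perm_of_el ht ht' h
  obtain ⟨s₂, k₂⟩ := projection π₂ _ card_trv_le (fun t ht => (grp_spec ht).2.2.2)
    fun t ht t' ht' h => perm_of_mat ht ht' h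
  let g₁ : grp →* Subgroup.centralizer ({zel} : Set Cfsg.Spor.He) :=
    (π₁.comp grp.subtype).codRestrict _ fun t => (grp_spec t.2).2.2.1
  let g₂ : grp →* Subgroup.centralizer ({trv} : Set SL5) :=
    (π₂.comp grp.subtype).codRestrict _ fun t => (grp_spec t.2).2.2.2
  have h₁ : Function.Surjective g₁ := fun c => by
    obtain ⟨t, ht, e⟩ := s₁ c c.2
    exact ⟨⟨t, ht⟩, Subtype.ext e⟩
  have h₂ : Function.Surjective g₂ := fun c => by
    obtain ⟨t, ht, e⟩ := s₂ c c.2
    exact ⟨⟨t, ht⟩, Subtype.ext e⟩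
  have hker : g₁.ker = g₂.ker := by
    ext t
    rw [MonoidHom.mem_ker, MonoidHom.mem_ker, Subtype.ext_iff, Subtype.ext_iff]
    exact (k₁ _ t.2).trans (k₂ _ t.2).symm
  exact ⟨((QuotientGroup.quotientKerEquivOfSurjective g₁ h₁).symm.trans
    (QuotientGroup.quotientMulEquivOfEq hker)).trans
    (QuotientGroup.quotientKerEquivOfSurjective g₂ h₂)⟩

end Cfsg.Agent.HeCent
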